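import Cfsg.Agent.H113.PSL.Main
import Cfsg.Agent.H615.SLSteinberg
import Cfsg.Agent.ClassicalGeometry.PSL2Basic

/-!
# Four divides a character degree of `PSL_n(q)`, `n ≥ 3` (hub H5, helper113)
-/

set_option autoImplicit false
set_option linter.unusedSectionVars false

open Cfsg Matrix

namespace Cfsg.Agent.H113.PSL.Four

open Cfsg.Agent.H671.H5 Cfsg.Agent.H113.PSL.Degrees Cfsg.Agent.H113.PSL.Facts Cfsg.Agent.H113.PSL.Main

universe u

variable {F : Type u} [Field F] [Fintype F]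

theorem eight_dvd {x : ℕ} (hx : x % 2 = 1) : 8 ∣ x ^ 2 - 1 := by
  obtain ⟨k, hk⟩ : ∃ k, x = 2 * k + 1 := ⟨x / 2, by omega⟩
  subst hk
  have h1 : (2 * k + 1) ^ 2 - 1 = 4 * (k * (k + 1)) := by
    have : (2 * k + 1) ^ 2 = 4 * (k * (k + 1)) + 1 := by ring
    omega
  obtain ⟨m, hm⟩ := (Nat.even_mul_succ_self k)
  rw [h1, hm]
  exact ⟨m, by ring⟩

theorem four {n : ℕ} (hn : 3 ≤ n) :
    ∃ d ∈ charDegrees (ProjectiveSpecialLinearGroup (Fin n) F), 4 ∣ d := by
  classical
  by_cases hodd : Fintype.card F % 2 = 1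
  · obtain ⟨φ, hφ⟩ := t1 (F := F) (n := n) (by omega) (hasCusp F n (by omega))
    refine ⟨_, ⟨φ, rfl⟩, ?_⟩
    refine (show (4 : ℕ) ∣ 8 by norm_num).trans ((eight_dvd hodd).trans (dvd_trans ?_ hφ))
    exact Finset.dvd_prod_of_mem (fun j => Fintype.card F ^ (j + 2) - 1) (Finset.mem_range.2 (show 0 < n - 2 by omega))
  have hq := one_lt_q (F := F)
  obtain ⟨p, hp⟩ := CharP.exists F
  obtain ⟨k, hp', hk⟩ := FiniteField.card F p
  have hp2 : p = 2 := by
    by_contra hne
    have h1 : Odd p := hp'.odd_of_ne_two hne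
    have h2 : Odd (Fintype.card F) := by rw [hk]; exact h1.pow
    rw [Nat.odd_iff] at h2
    exact hodd h2
  subst hp2
  by_cases h2 : Fintype.card F = 2
  · -- `q = 2`: the Steinberg character
    have : Fact (Nat.Prime 2) := ⟨Nat.prime_two⟩
    obtain ⟨χ, h1, -, h3⟩ := Cfsg.Agent.H615.SLSteinberg.exists_steinberg (F := F) (n := n) (by omega) 2
    have hcenter : Subgroup.center (SpecialLinearGroup (Fin n) F) = ⊥ := by
      rw [Subgroup.eq_bot_iff_forall]
      intro z hz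
      obtain ⟨r, hr, hrz⟩ := Matrix.SpecialLinearGroup.mem_center_iff.1 hz
      have hr1 : r = 1 := by
        have h0 : r ≠ 0 := by
          rintro rfl
          rw [Fintype.card_fin, zero_pow (by omega)] at hr
          exact zero_ne_one hr
        have h4 := FiniteField.pow_card_sub_one_eq_one r h0
        rw [h2, Nat.add_sub_cancel_left (n := 1) (m := 1)] at h4
        simpa using h4
      apply Subtype.ext
      rw [← hrz, hr1, map_one]
      rfl
    have e : SpecialLinearGroup (Fin n) F ≃* ProjectiveSpecialLinearGroup (Fin n) F :=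
      MulEquiv.ofBijective (QuotientGroup.mk' (Subgroup.center (SpecialLinearGroup (Fin n) F)))
        ⟨by
          rw [← MonoidHom.ker_eq_bot_iff, QuotientGroup.ker_mk']
          exact hcenter, QuotientGroup.mk'_surjective _⟩
    rw [← H424.DegTools.charDegrees_congr e]
    refine ⟨_, ⟨χ, rfl⟩, ?_⟩
    rw [H670.PSing.charDegree_eq_of h1]
    have hcard : 4 ∣ Nat.card (SpecialLinearGroup (Fin n) F) := by
      have : Nonempty (Fin n) := ⟨⟨0, by omega⟩⟩
      have h5 := Cfsg.Agent.ClassicalGeometry.PSL2Basic.card_SL_mul (F := F) (n := Fin n)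
      rw [h2, Nat.add_sub_cancel_left (n := 1) (m := 1), mul_one, Matrix.card_GL_field] at h5
      rw [h5]
      refine dvd_trans ?_ (Finset.dvd_prod_of_mem (fun i : Fin n => Fintype.card F ^ n - Fintype.card F ^ (i : ℕ))
        (Finset.mem_univ (⟨2, by omega⟩ : Fin n)))
      rw [h2]
      obtain ⟨m, rfl⟩ : ∃ m, n = m + 2 := ⟨n - 2, by omega⟩
      refine Nat.dvd_sub ⟨2 ^ m, by ring⟩ ?_
      norm_num
    have h6 : 2 ≤ (Nat.card (SpecialLinearGroup (Fin n) F)).factorization 2 := by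
      rw [← Nat.Prime.pow_dvd_iff_le_factorization Nat.prime_two Nat.card_pos.ne']
      exact hcard
    exact (show (4 : ℕ) ∣ 2 ^ 2 by norm_num).trans (pow_dvd_pow 2 h6)
  · -- `q ≥ 4` even
    obtain ⟨φ, hφ⟩ := t3 (F := F) (n := n) (by omega)
    refine ⟨_, ⟨φ, rfl⟩, ?_⟩
    rw [hφ]
    apply Dvd.dvd.mul_right
    have hk2 : 2 ≤ (k : ℕ) := by
      by_contra h
      have h1 : (k : ℕ) = 1 := by have := k.pos; omega
      rw [h1, pow_one] at hk
      exact h2 hk
    rw [hk]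
    exact (show (4 : ℕ) ∣ 2 ^ 2 by norm_num).trans (pow_dvd_pow 2 hk2)

/-- **Four divides a character degree of `PSL_n(q)`, `n ≥ 3`.** -/
theorem four_psl {S : Type u} [Group S] (h : Cfsg.IsPSL S) (hL2 : ¬ IsL2 S) :
    ∃ χ : IrrCharacter S, 4 ∣ charDegree (χ : S → ℂ) := by
  obtain ⟨F, _, _, n, hn, h4, ⟨e⟩⟩ := h
  have hn2 : n ≠ 2 := by
    rintro rfl
    exact hL2 ⟨F, inferInstance, inferInstance, h4 rfl, ⟨e⟩⟩
  obtain ⟨d, hd, h4⟩ := four (F := F) (n := n) (by omega)
  rw [← H424.DegTools.charDegrees_congr e] at hd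
  obtain ⟨χ, rfl⟩ := hd
  exact ⟨χ, h4⟩

end Cfsg.Agent.H113.PSL.Four
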